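import Cfsg.Agent.H21.PG.Types

/-!
# Block G of S4884, polar types: `KB` and `CaseE` (helper435)

* `kb` : the norm torus of `F_{r^d}` with the form `Tr (c a b^{r^{d/2}})`;
* `Hyp.le` : a totally isotropic subspace has dimension at most `m`;
* `pf_top` : the top of a flag of `PF`;
* `Copy` : a copy of a nondegenerate form inside `V`, `Copy.x` the extension of an isometry by the identity;
* `caseE` : two orthogonal copies of the norm torus inside `d ≤ m` hyperbolic pairs.
-/

set_option autoImplicit false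
set_option linter.unusedSectionVars false

namespace Cfsg.Agent.H435.PG

open Cfsg.Agent.TitsThree.Siegel Module Submodule Cfsg.Agent.H439.CC Cfsg.Agent.H21.PG

universe u v

/-! ### The norm torus -/

theorem zmod_two (z : ZMod 2) (h : z ≠ 0) : z = 1 := by
  revert z
  decide

section Num

variable {F : Type u} [Field F] [Finite F] {q : ℕ} [hqp : Fact q.Prime]

theorem cast_ne (hq0 : (q : F) ≠ 0) : ((Nat.card F : ℕ) : ZMod q) ≠ 0 := by
  intro h
  rw [ZMod.natCast_eq_zero_iff] at h
  have : Fintype F := Fintype.ofFinite F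
  obtain ⟨p, hp, n, hpp, hn⟩ := FiniteField.card' F
  rw [Nat.card_eq_fintype_card, hn] at h
  have h1 : q = p := (Nat.prime_dvd_prime_iff_eq hqp.out hpp).1 (hqp.out.dvd_of_dvd_pow h)
  apply hq0
  rw [h1]
  exact CharP.cast_eq_zero F p

theorem order_pos (hq0 : (q : F) ≠ 0) : 0 < orderOf ((Nat.card F : ℕ) : ZMod q) := by
  have h := cast_ne (F := F) hq0
  have h1 : orderOf ((Nat.card F : ℕ) : ZMod q) = orderOf (Units.mk0 _ h) := by
    rw [← orderOf_units, Units.val_mk0]
  rw [h1]
  exact orderOf_pos _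

end Num

theorem kb : KB.{u} := by
  intro F _ _ q hq ε h2 hq0 hε d hd hev
  obtain ⟨p, hp⟩ := CharP.exists F
  have : Fact p.Prime := ⟨CharP.char_is_prime F p⟩
  have hd0 : 0 < d := hd ▸ order_pos (F := F) hq0
  have : NeZero d := ⟨hd0.ne'⟩
  let K := FiniteField.Extension F p d
  have : Finite K := inferInstanceAs (Finite (FiniteField.Extension F p d))
  have : Fintype K := Fintype.ofFinite K
  have hK : Nat.card K = Nat.card F ^ d := FiniteField.natCard_extension F p d
  have hfr : finrank F K = d := FiniteField.finrank_extension F p d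
  obtain ⟨d', hd'⟩ := hev
  set r := Nat.card F with hr
  have hr1 : 1 < r := Finite.one_lt_card
  have hrd : ((r : ℕ) : ZMod q) ^ d = 1 := by rw [hd]; exact pow_orderOf_eq_one _
  -- `r ^ d' = -1`
  have hm1 : ((r : ℕ) : ZMod q) ^ d' = -1 := by
    have h1 : (((r : ℕ) : ZMod q) ^ d') ^ 2 = 1 := by
      rw [← pow_mul, mul_two, ← hd', hrd]
    rcases sq_eq_one_iff.1 h1 with h | h
    · exfalso
      have h3 := orderOf_dvd_of_pow_eq_one h
      rw [← hd] at h3
      have h4 : 0 < d' := by omega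
      have := Nat.le_of_dvd h4 h3
      omega
    · exact h
  have hq2 : q ≠ 2 := by
    rintro rfl
    have h1 : ((r : ℕ) : ZMod 2) = 1 := by
      exact zmod_two _ (cast_ne (F := F) hq0)
    rw [h1, orderOf_one] at hd
    omega
  -- `ζ`
  have hdvd : q ∣ Nat.card Kˣ := by
    rw [Nat.card_units, hK]
    have h1 : 1 ≤ r ^ d := Nat.one_le_pow _ _ (by omega)
    rw [← ZMod.natCast_eq_zero_iff, Nat.cast_sub h1, Nat.cast_pow, hrd, Nat.cast_one, sub_self]
  obtain ⟨ζ, hζ⟩ := exists_prime_orderOf_dvd_card' q hdvd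
  -- `σ`
  let σ : K ≃ₐ[F] K := FiniteField.Extension.frob F p d ^ d'
  have hσ : ∀ x : K, σ x = x ^ (r ^ d') := fun x => FiniteField.Extension.frob_iterate_apply F p d d'
  have hσσ : ∀ x : K, σ (σ x) = x := by
    intro x
    rw [hσ, hσ, ← pow_mul, ← pow_add, ← hd', ← hK, Nat.card_eq_fintype_card]
    exact FiniteField.pow_card x
  have hζσ : (ζ : K) * σ ζ = 1 := by
    have h1 : ζ ^ (r ^ d' + 1) = 1 := by
      apply orderOf_dvd_iff_pow_eq_one.1
      rw [hζ, ← ZMod.natCast_eq_zero_iff, Nat.cast_add, Nat.cast_pow, hm1, Nat.cast_one, neg_add_cancel]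
    rw [hσ, ← pow_succ', ← Units.val_pow_eq_pow_val, h1, Units.val_one]
  have hζq : (ζ : K) ^ q = 1 := by
    have h1 : ζ ^ q = 1 := by rw [← hζ]; exact pow_orderOf_eq_one _
    rw [← Units.val_pow_eq_pow_val, h1, Units.val_one]
  have hζ1 : (ζ : K) ≠ 1 := by
    intro h
    have h1 : ζ = 1 := Units.ext h
    rw [h1, orderOf_one] at hζ
    exact hq.out.ne_one hζ.symm
  have hζσ' : σ ζ ≠ ζ := by
    intro h
    rw [h, ← sq] at hζσ
    have h1 : ζ ^ 2 = 1 := Units.ext hζσ
    have h3 := orderOf_dvd_of_pow_eq_one h1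
    rw [hζ] at h3
    exact hq2 ((Nat.prime_dvd_prime_iff_eq hq.out Nat.prime_two).1 h3)
  -- `c`
  obtain ⟨c, hc0, hc⟩ : ∃ c : K, c ≠ 0 ∧ σ c = algebraMap F K ε * c := by
    rcases hε with rfl | rfl
    · exact ⟨1, one_ne_zero, by rw [map_one, map_one, one_mul]⟩
    · refine ⟨ζ - σ ζ, sub_ne_zero.2 hζσ'.symm, ?_⟩
      rw [map_sub, hσσ, map_neg, map_one]
      ring
  -- the form
  let φ : K →ₗ[F] K →ₗ[F] F := LinearMap.mk₂ F (fun a b => Algebra.trace F K (c * a * σ b))
    (fun a a' b => by rw [mul_add, add_mul, map_add])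
    (fun t a b => by
      rw [mul_smul_comm, smul_mul_assoc, map_smul])
    (fun a b b' => by rw [map_add, mul_add, map_add])
    (fun t a b => by rw [map_smul, mul_smul_comm, map_smul])
  have hφ : ∀ a b, φ a b = Algebra.trace F K (c * a * σ b) := fun a b => rfl
  have htr : ∀ x : K, Algebra.trace F K (σ x) = Algebra.trace F K x := fun x =>
    Algebra.trace_eq_of_algEquiv σ x
  let e : K ≃ₗ[F] (Fin d → F) := (finBasisOfFinrankEq F K hfr).equivFun
  let μ : K ≃ₗ[F] K := LinearEquiv.ofLinearMap (LinearMap.mulLeft F (ζ : K)) (LinearMap.mulLeft F ((ζ⁻¹ : Kˣ) : K))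
    (by
      apply LinearMap.ext
      intro x
      rw [LinearMap.comp_apply, LinearMap.mulLeft_apply, LinearMap.mulLeft_apply, ← mul_assoc, ← Units.val_mul,
        mul_inv_cancel, Units.val_one, one_mul, LinearMap.id_apply])
    (by
      apply LinearMap.ext
      intro x
      rw [LinearMap.comp_apply, LinearMap.mulLeft_apply, LinearMap.mulLeft_apply, ← mul_assoc, ← Units.val_mul,
        inv_mul_cancel, Units.val_one, one_mul, LinearMap.id_apply])
  have hμ : ∀ x, μ x = ζ * x := fun x => rfl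
  let A : (Fin d → F) ≃ₗ[F] (Fin d → F) := (e.symm.trans μ).trans e
  have hA : ∀ a, A a = e (ζ * e.symm a) := fun a => rfl
  have hAn : ∀ (n : ℕ) (a), (A ^ n) a = e (ζ ^ n * e.symm a) := by
    intro n
    induction n with
    | zero => intro a; rw [pow_zero, pow_zero, one_mul, e.apply_symm_apply]; rfl
    | succ n ih =>
      intro a
      rw [pow_succ, LinearEquiv.mul_apply, ih, hA, e.symm_apply_apply, ← mul_assoc, ← pow_succ]
  refine ⟨(φ.compl₁₂ (e.symm : (Fin d → F) →ₗ[F] K) (e.symm : (Fin d → F) →ₗ[F] K)), A, ?_, ?_, ?_, ?_, ?_⟩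
  · intro a b
    change φ (e.symm b) (e.symm a) = ε * φ (e.symm a) (e.symm b)
    have h1 : σ (c * e.symm b * σ (e.symm a)) = ε • (c * e.symm a * σ (e.symm b)) := by
      rw [map_mul, map_mul, hσσ, hc, Algebra.smul_def]
      ring
    rw [hφ, hφ, ← htr, h1, map_smul, smul_eq_mul]
  · intro a ha
    have h1 : ∀ y : K, Algebra.trace F K (c * e.symm a * y) = 0 := by
      intro y
      have h3 := ha (e (σ y))
      change φ (e.symm a) (e.symm (e (σ y))) = 0 at h3
      rw [e.symm_apply_apply, hφ, hσσ] at h3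
      exact h3
    have h3 : c * e.symm a = 0 := by
      refine (traceForm_nondegenerate F K).1 _ fun y => ?_
      rw [Algebra.traceForm_apply]
      exact h1 y
    have h4 : e.symm a = 0 := (mul_eq_zero.1 h3).resolve_left hc0
    rw [← e.apply_symm_apply a, h4, map_zero]
  · intro a b
    change φ (e.symm (A a)) (e.symm (A b)) = φ (e.symm a) (e.symm b)
    rw [hA, hA, e.symm_apply_apply, e.symm_apply_apply, hφ, hφ, map_mul σ]
    congr 1
    have h3 : c * ((ζ : K) * e.symm a) * (σ ζ * σ (e.symm b)) = (ζ * σ ζ) * (c * e.symm a * σ (e.symm b)) := by ring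
    rw [h3, hζσ, one_mul]
  · apply LinearEquiv.ext
    intro a
    rw [hAn, hζq, one_mul, e.apply_symm_apply]
    rfl
  · intro a ha
    have h1 : (ζ : K) * e.symm a = e.symm a := by
      have h3 := congrArg e.symm ha
      rwa [hA, e.symm_apply_apply] at h3
    have h3 : ((ζ : K) - 1) * e.symm a = 0 := by rw [sub_mul, one_mul, h1, sub_self]
    have h4 : e.symm a = 0 := (mul_eq_zero.1 h3).resolve_left (sub_ne_zero.2 hζ1)
    rw [← e.apply_symm_apply a, h4, map_zero]


section Basic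

variable {F : Type u} [Field F] {V : Type v} [AddCommGroup V] [Module F V] {H : HForm F V}

theorem h_sum_left {ι : Type*} (s : Finset ι) (f : ι → V) (v : V) :
    H.h (∑ i ∈ s, f i) v = ∑ i ∈ s, H.h (f i) v := by
  classical
  induction s using Finset.induction_on with
  | empty => rw [Finset.sum_empty, Finset.sum_empty, H.zero_left]
  | insert a s ha ih => rw [Finset.sum_insert ha, Finset.sum_insert ha, H.add_left, ih]

theorem h_sum_right {ι : Type*} (s : Finset ι) (f : ι → V) (v : V) :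
    H.h v (∑ i ∈ s, f i) = ∑ i ∈ s, H.h v (f i) := by
  classical
  induction s using Finset.induction_on with
  | empty => rw [Finset.sum_empty, Finset.sum_empty, H.zero_right]
  | insert a s ha ih => rw [Finset.sum_insert ha, Finset.sum_insert ha, H.add_right, ih]

/-- the top of the flags -/
theorem pf_top {Adm : Submodule F V → Prop} {X : Set (V ≃ₗ[F] V)} :
    ∀ (ds : List ℕ) (A : Submodule F V), Adm A → (∀ x ∈ X, A.map (x : V →ₗ[F] V) = A) → PF Adm X ds A →
      ∃ W : Submodule F V, A ≤ W ∧ Adm W ∧ (∀ x ∈ X, W.map (x : V →ₗ[F] V) = W) ∧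
        finrank F W = finrank F A + ds.sum
  | [], A, hA, hs, _ => ⟨A, le_rfl, hA, hs, by simp⟩
  | k :: ds, A, hA, hs, ⟨B, h1, h2, h3, h4, h5, h6⟩ => by
    obtain ⟨W, hW1, hW2, hW3, hW4⟩ := pf_top ds B h2 h3 h6
    exact ⟨W, h1.le.trans hW1, hW2, hW3, by rw [hW4, h4, List.sum_cons, add_assoc]⟩

theorem sum_dig (m : ℕ) : (dig m).sum = m := Nat.sum_map_two_pow_bitIndices m

theorem sb_of_map {x : V ≃ₗ[F] V} {W : Submodule F V} (h : W.map (x : V →ₗ[F] V) = W) : Sb x W := by
  intro v hv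
  rw [← h]
  exact ⟨v, hv, rfl⟩

end Basic

section Max

variable {F : Type u} [Field F] [Finite F] {V : Type v} [AddCommGroup V] [Module F V] [FiniteDimensional F V]
  {H : HForm F V} {m : ℕ}

/-- the Witt index is at most `m` -/
theorem hyp_le (hy : Hyp H m) (U : Submodule F V) (hU : TI H U) : finrank F U ≤ m := by
  classical
  by_contra hlt
  push Not at hlt
  -- the span of the `u i`
  let U0 : Submodule F V := span F (Set.range hy.u)
  have hU0 : TI H U0 := by
    intro a ha b hb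
    induction ha using Submodule.span_induction with
    | mem x hx =>
      obtain ⟨i, rfl⟩ := hx
      induction hb using Submodule.span_induction with
      | mem y hy' => obtain ⟨j, rfl⟩ := hy'; exact hy.uu i j
      | zero => exact H.zero_right _
      | add y z _ _ h1 h2 => rw [H.add_right, h1, h2, add_zero]
      | smul c y _ h1 => rw [H.smul_right, h1, mul_zero]
    | zero => exact H.zero_left _
    | add y z _ _ h1 h2 => rw [H.add_left, h1, h2, add_zero]
    | smul c y _ h1 => rw [H.smul_left, h1, mul_zero]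
  have h1 : finrank F U0 < finrank F U := by
    refine lt_of_le_of_lt ?_ hlt
    have := finrank_range_le_card (R := F) hy.u
    rwa [Fintype.card_fin] at this
  obtain ⟨v, hv, hvp, hvU⟩ := exists_isotropic hU0 hU h1
  apply hvU
  -- subtract the components
  let v' : V := v - ∑ i, H.h v (hy.w i) • hy.u i
  have hu : ∀ i, H.h v (hy.u i) = 0 := fun i => hvp _ (subset_span ⟨i, rfl⟩)
  have h2 : ∀ i, H.h v' (hy.u i) = 0 := by
    intro i
    rw [H.sub_left, hu, h_sum_left]
    rw [Finset.sum_eq_zero, sub_zero]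
    intro j _
    rw [H.smul_left, hy.uu, mul_zero]
  have h3 : ∀ i, H.h v' (hy.w i) = 0 := by
    intro i
    rw [H.sub_left, h_sum_left, Finset.sum_eq_single i]
    · rw [H.smul_left, hy.uw, if_pos rfl, mul_one, sub_self]
    · intro j _ hj
      rw [H.smul_left, hy.uw, if_neg hj, mul_zero]
    · intro h; exact absurd (Finset.mem_univ i) h
  have h4 : H.h v' v' = 0 := by
    change H.h v' (v - ∑ i, H.h v (hy.w i) • hy.u i) = 0
    rw [H.sub_right, h_sum_right, Finset.sum_eq_zero, sub_zero]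
    · change H.h (v - ∑ i, H.h v (hy.w i) • hy.u i) v = 0
      rw [H.sub_left, hU v hv v hv, h_sum_left, Finset.sum_eq_zero, sub_zero]
      intro i _
      rw [H.smul_left, H.orth_symm (hu i), mul_zero]
    · intro i _
      rw [H.smul_right, h2, mul_zero]
  have h5 : v' = 0 := hy.ani v' (fun i => H.orth_symm (h2 i)) (fun i => H.orth_symm (h3 i)) h4
  have h6 : v = ∑ i, H.h v (hy.w i) • hy.u i := sub_eq_zero.1 h5
  rw [h6]
  exact sum_mem fun i _ => smul_mem _ _ (subset_span ⟨i, rfl⟩)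

end Max

/-! ### Copies of a form -/

section Copy

variable {F : Type u} [Field F] {V : Type v} [AddCommGroup V] [Module F V] {H : HForm F V} {d : ℕ}

/-- a copy of the form `κ B` inside `V` -/
structure Copy (H : HForm F V) (B : (Fin d → F) →ₗ[F] (Fin d → F) →ₗ[F] F) where
  j : (Fin d → F) →ₗ[F] V
  κ : F
  κ0 : κ ≠ 0
  hj : ∀ a b, H.h (j a) (j b) = κ * B a b

variable {B : (Fin d → F) →ₗ[F] (Fin d → F) →ₗ[F] F}

/-- the coordinates: `h (j a) v = κ B a (c v)` -/
theorem Copy.exists_c (C : Copy H B) (hσ : ∀ a, H.σ a = a) (hB : ∀ a, (∀ b, B b a = 0) → a = 0) :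
    ∃ c : V →ₗ[F] (Fin d → F), ∀ a v, H.h (C.j a) v = C.κ * B a (c v) := by
  have hinj : Function.Injective B.flip := by
    rw [← LinearMap.ker_eq_bot, eq_bot_iff]
    intro a ha
    rw [LinearMap.mem_ker] at ha
    rw [mem_bot]
    exact hB a fun b => LinearMap.congr_fun ha b
  let E : (Fin d → F) ≃ₗ[F] Module.Dual F (Fin d → F) :=
    LinearMap.linearEquivOfInjective B.flip hinj Subspace.dual_finrank_eq.symm
  have hE : ∀ a b, E a b = B b a := fun a b => rfl
  let f : V →ₗ[F] Module.Dual F (Fin d → F) := LinearMap.mk₂ F (fun v a => C.κ⁻¹ * H.h (C.j a) v)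
    (fun v v' a => by rw [H.add_right, mul_add])
    (fun t v a => by rw [H.smul_right, hσ, smul_eq_mul]; ring)
    (fun v a a' => by rw [map_add, H.add_left, mul_add])
    (fun t v a => by rw [map_smul, H.smul_left, smul_eq_mul]; ring)
  refine ⟨(E.symm : Module.Dual F (Fin d → F) →ₗ[F] (Fin d → F)).comp f, fun a v => ?_⟩
  have h1 : B a (E.symm (f v)) = f v a := by rw [← hE, E.apply_symm_apply]
  change H.h (C.j a) v = C.κ * B a (E.symm (f v))
  rw [h1]
  change H.h (C.j a) v = C.κ * (C.κ⁻¹ * H.h (C.j a) v)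
  rw [← mul_assoc, mul_inv_cancel₀ C.κ0, one_mul]

/-- coordinates -/
structure Coord (C : Copy H B) where
  c : V →ₗ[F] (Fin d → F)
  hc : ∀ a v, H.h (C.j a) v = C.κ * B a (c v)

variable {C : Copy H B} (D : Coord C) (hB : ∀ a, (∀ b, B b a = 0) → a = 0)

include hB in
theorem Coord.ext' {a a' : Fin d → F} (h : ∀ b, C.κ * B b a = C.κ * B b a') : a = a' := by
  rw [← sub_eq_zero]
  refine hB _ fun b => ?_
  rw [map_sub, sub_eq_zero]
  exact mul_left_cancel₀ C.κ0 (h b)

include hB in
theorem Coord.cj (a : Fin d → F) : D.c (C.j a) = a :=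
  Coord.ext' (C := C) hB fun b => by rw [← D.hc, C.hj]

/-- the extension of `A` by the identity -/
def Coord.f (A : (Fin d → F) ≃ₗ[F] (Fin d → F)) : V →ₗ[F] V :=
  LinearMap.id + C.j.comp (((A : (Fin d → F) →ₗ[F] (Fin d → F)) - 1).comp D.c)

theorem Coord.f_apply (A : (Fin d → F) ≃ₗ[F] (Fin d → F)) (v : V) : D.f A v = v + C.j (A (D.c v) - D.c v) := rfl

include hB in
theorem Coord.c_f (A : (Fin d → F) ≃ₗ[F] (Fin d → F)) (v : V) : D.c (D.f A v) = A (D.c v) := by
  rw [D.f_apply, map_add, D.cj hB]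
  abel

include hB in
theorem Coord.f_f (A A' : (Fin d → F) ≃ₗ[F] (Fin d → F)) (v : V) : D.f A (D.f A' v) = D.f (A * A') v := by
  rw [D.f_apply, D.c_f hB, D.f_apply, D.f_apply, LinearEquiv.mul_apply, add_assoc, ← map_add]
  congr 2
  abel

theorem Coord.f_one (v : V) : D.f 1 v = v := by
  rw [D.f_apply]
  change v + C.j (D.c v - D.c v) = v
  rw [sub_self, map_zero, add_zero]

/-- the extension as an automorphism -/
def Coord.x (A : (Fin d → F) ≃ₗ[F] (Fin d → F)) : V ≃ₗ[F] V :=
  LinearEquiv.ofLinearMap (D.f A) (D.f A⁻¹)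
    (LinearMap.ext fun v => by
      rw [LinearMap.comp_apply, D.f_f hB, mul_inv_cancel, D.f_one, LinearMap.id_apply])
    (LinearMap.ext fun v => by
      rw [LinearMap.comp_apply, D.f_f hB, inv_mul_cancel, D.f_one, LinearMap.id_apply])

theorem Coord.x_apply (A : (Fin d → F) ≃ₗ[F] (Fin d → F)) (v : V) :
    D.x hB A v = v + C.j (A (D.c v) - D.c v) := rfl

theorem Coord.x_pow (A : (Fin d → F) ≃ₗ[F] (Fin d → F)) (n : ℕ) : D.x hB A ^ n = D.x hB (A ^ n) := by
  induction n with
  | zero =>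
    apply LinearEquiv.ext
    intro v
    rw [pow_zero, pow_zero]
    exact (D.f_one v).symm
  | succ n ih =>
    apply LinearEquiv.ext
    intro v
    rw [pow_succ, pow_succ, ih, LinearEquiv.mul_apply]
    exact D.f_f hB _ _ v

theorem Coord.x_isom (hσ : ∀ a, H.σ a = a) (hε : ∀ a b, B b a = H.ε * B a b) {A : (Fin d → F) ≃ₗ[F] (Fin d → F)}
    (hA : ∀ a b, B (A a) (A b) = B a b) : Isom H (D.x hB A) := by
  have h1 : ∀ a v, H.h v (C.j a) = C.κ * B (D.c v) a := by
    intro a v
    rw [H.swap, hσ, D.hc, hε a (D.c v)]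
    ring
  intro v v'
  rw [D.x_apply, D.x_apply, H.add_left, H.add_right, H.add_right, h1, D.hc, C.hj]
  simp only [map_sub, LinearMap.sub_apply, hA]
  ring

theorem Coord.Rg_le (A : (Fin d → F) ≃ₗ[F] (Fin d → F)) : Rg (D.x hB A) ≤ LinearMap.range C.j := by
  rintro _ ⟨v, rfl⟩
  refine ⟨A (D.c v) - D.c v, ?_⟩
  change _ = D.x hB A v - v
  rw [D.x_apply]
  abel

/-- vectors fixed by `x` are orthogonal to the copy -/
theorem Coord.fix_orth {A : (Fin d → F) ≃ₗ[F] (Fin d → F)} (hA : ∀ a, A a = a → a = 0) {v : V}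
    (hv : D.x hB A v = v) (a : Fin d → F) : H.h (C.j a) v = 0 := by
  have h1 : A (D.c v) = D.c v := by
    have h2 := D.c_f hB A v
    have h3 : D.f A v = v := hv
    rw [h3] at h2
    exact h2.symm
  rw [D.hc, hA _ h1, map_zero, mul_zero]

end Copy

section Main

variable {F : Type u} [Field F] [Finite F] {V : Type v} [AddCommGroup V] [Module F V] [FiniteDimensional F V]
  {H : HForm F V} {d q : ℕ} [hqp : Fact q.Prime] {B : (Fin d → F) →ₗ[F] (Fin d → F) →ₗ[F] F} {C : Copy H B}
  (D : Coord C) (hB : ∀ a, (∀ b, B b a = 0) → a = 0)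

/-- a stable totally isotropic subspace is orthogonal to the copy -/
theorem Coord.orth (hd : d = orderOf ((Nat.card F : ℕ) : ZMod q)) (hd0 : 0 < d) (hq0 : (q : F) ≠ 0)
    {A : (Fin d → F) ≃ₗ[F] (Fin d → F)} (hAq : A ^ q = 1) (hA : ∀ a, A a = a → a = 0) {W : Submodule F V}
    (hW : TI H W) (hs : Sb (D.x hB A) W) {v : V} (hv : v ∈ W) (a : Fin d → F) : H.h (C.j a) v = 0 := by
  have hx : D.x hB A ^ q = 1 := by
    rw [D.x_pow, hAq]
    exact LinearEquiv.ext fun v => D.f_one v
  have hinj : Function.Injective C.j := fun a b h => by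
    rw [← D.cj hB a, h, D.cj hB]
  have hr : finrank F (LinearMap.range C.j) = d := by
    rw [LinearMap.finrank_range_of_inj hinj, Module.finrank_fin_fun]
  have h1 := dvd_inf hx hq0 hs
  rw [← hd] at h1
  have h2 : W ⊓ Rg (D.x hB A) ≤ LinearMap.range C.j := inf_le_right.trans (D.Rg_le hB A)
  have h3 : finrank F (W ⊓ Rg (D.x hB A) : Submodule F V) ≤ d := (Submodule.finrank_mono h2).trans_eq hr
  have h4 : finrank F (W ⊓ Rg (D.x hB A) : Submodule F V) ≠ d := by
    intro h
    have h5 : W ⊓ Rg (D.x hB A) = LinearMap.range C.j := Submodule.eq_of_le_of_finrank_eq h2 (h.trans hr.symm)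
    have h6 : LinearMap.range C.j ≤ W := h5 ▸ inf_le_left
    have h7 : (Pi.single ⟨0, hd0⟩ 1 : Fin d → F) = 0 := by
      refine hB _ fun b => ?_
      have h8 := hW _ (h6 ⟨b, rfl⟩) _ (h6 ⟨Pi.single ⟨0, hd0⟩ 1, rfl⟩)
      rw [C.hj] at h8
      exact (mul_eq_zero.1 h8).resolve_left C.κ0
    have h9 := congrFun h7 ⟨0, hd0⟩
    rw [Pi.single_eq_same, Pi.zero_apply] at h9
    exact one_ne_zero h9
  have h5 : W ⊓ Rg (D.x hB A) = ⊥ := by
    rw [← Submodule.finrank_eq_zero (R := F)]
    rcases Nat.eq_zero_or_pos (finrank F (W ⊓ Rg (D.x hB A) : Submodule F V)) with h | h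
    · exact h
    · exact absurd (le_antisymm h3 (Nat.le_of_dvd h h1)) h4
  obtain ⟨b, hb, b', hb', rfl⟩ := hs.split hx hq0 hv
  have h6 : b = 0 := by
    rw [h5] at hb
    exact hb
  rw [h6, zero_add]
  exact D.fix_orth hB hA (mem_Cg.1 hb'.2) a

end Main

/-- the maps `a ↦ ∑ a_i u_i + s ∑ B(a, e_i) w_i` -/
def J {F : Type u} [Field F] {V : Type v} [AddCommGroup V] [Module F V] {d : ℕ}
    (B : (Fin d → F) →ₗ[F] (Fin d → F) →ₗ[F] F) (u w : Fin d → V) (s : F) : (Fin d → F) →ₗ[F] V where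
  toFun a := ∑ i, (a i • u i + (s * B a (Pi.single i 1)) • w i)
  map_add' a b := by
    rw [← Finset.sum_add_distrib]
    refine Finset.sum_congr rfl fun i _ => ?_
    rw [Pi.add_apply, map_add, LinearMap.add_apply]
    module
  map_smul' t a := by
    rw [Finset.smul_sum]
    refine Finset.sum_congr rfl fun i _ => ?_
    rw [Pi.smul_apply, map_smul, LinearMap.smul_apply, RingHom.id_apply, smul_eq_mul, smul_eq_mul]
    module

theorem h_J {F : Type u} [Field F] {V : Type v} [AddCommGroup V] [Module F V] {H : HForm F V} {d : ℕ}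
    {B : (Fin d → F) →ₗ[F] (Fin d → F) →ₗ[F] F} {u w : Fin d → V} (hσ : ∀ a, H.σ a = a)
    (hε : ∀ a b, B b a = H.ε * B a b)
    (huu : ∀ i j, H.h (u i) (u j) = 0) (hww : ∀ i j, H.h (w i) (w j) = 0)
    (huw : ∀ i j, H.h (u i) (w j) = if i = j then 1 else 0) (s t : F) (a b : Fin d → F) :
    H.h (J B u w s a) (J B u w t b) = ((s + t) * H.ε) * B a b := by
  classical
  have hwu : ∀ i j, H.h (w i) (u j) = if i = j then H.ε else 0 := by
    intro i j
    rw [H.swap, hσ, huw]
    by_cases h : i = j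
    · rw [if_pos h, if_pos h.symm, mul_one]
    · rw [if_neg h, if_neg (Ne.symm h), mul_zero]
  have hsum : ∀ a b : Fin d → F, B a b = ∑ i, b i * B a (Pi.single i 1) := by
    intro a b
    conv_lhs => rw [pi_eq_sum_univ' b, map_sum]
    refine Finset.sum_congr rfl fun i _ => ?_
    rw [map_smul, smul_eq_mul]
  have h1 : ∀ i, H.h (a i • u i + (s * B a (Pi.single i 1)) • w i) (J B u w t b)
      = t * (a i * B b (Pi.single i 1)) + s * H.ε * (b i * B a (Pi.single i 1)) := by
    intro i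
    change H.h _ (∑ k, (b k • u k + (t * B b (Pi.single k 1)) • w k)) = _
    rw [h_sum_right, Finset.sum_eq_single i]
    · rw [H.add_left, H.add_right, H.add_right, H.smul_left, H.smul_left, H.smul_left, H.smul_left, H.smul_right,
        H.smul_right, H.smul_right, H.smul_right, hσ, hσ, huu, hww, huw, hwu, if_pos rfl, if_pos rfl]
      ring
    · intro k _ hk
      rw [H.add_left, H.add_right, H.add_right, H.smul_left, H.smul_left, H.smul_left, H.smul_left, H.smul_right,
        H.smul_right, H.smul_right, H.smul_right, hσ, hσ, huu, hww, huw, hwu, if_neg (Ne.symm hk), if_neg (Ne.symm hk)]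
      ring
    · intro h; exact absurd (Finset.mem_univ i) h
  change H.h (∑ i, (a i • u i + (s * B a (Pi.single i 1)) • w i)) _ = _
  rw [h_sum_left, Finset.sum_congr rfl fun i _ => h1 i, Finset.sum_add_distrib, ← Finset.mul_sum, ← Finset.mul_sum,
    ← hsum b a, ← hsum a b, hε a b]
  ring

theorem caseE : CaseE.{u, v} := by
  classical
  intro F _ _ V _ _ _ H q m _ hy hσ h2 hq0 hev hdm
  set d := orderOf ((Nat.card F : ℕ) : ZMod q) with hd
  have hd0 : 0 < d := order_pos (F := F) hq0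
  have hεε : H.ε * H.ε = 1 := by
    have := H.ε_mul
    rwa [hσ] at this
  have hε1 : H.ε = 1 ∨ H.ε = -1 := by
    rw [← sq] at hεε
    exact sq_eq_one_iff.1 hεε
  obtain ⟨B, A, hB1, hB2, hA1, hA2, hA3⟩ := kb F q H.ε h2 hq0 hε1 d hd hev
  have hB3 : ∀ a, (∀ b, B b a = 0) → a = 0 := by
    intro a ha
    refine hB2 a fun b => ?_
    rw [hB1, ha, mul_zero]
  let u : Fin d → V := fun i => hy.u (Fin.castLE hdm i)
  let w : Fin d → V := fun i => hy.w (Fin.castLE hdm i)
  have huu : ∀ i j, H.h (u i) (u j) = 0 := fun i j => hy.uu _ _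
  have hww : ∀ i j, H.h (w i) (w j) = 0 := fun i j => hy.ww _ _
  have huw : ∀ i j, H.h (u i) (w j) = if i = j then 1 else 0 := by
    intro i j
    rw [hy.uw]
    simp [Fin.castLE_inj]
  have hJ := fun s t a b => h_J (B := B) hσ hB1 huu hww huw s t a b
  let t : F := 2⁻¹
  have ht2 : t + t = 1 := by
    rw [← mul_two]
    exact inv_mul_cancel₀ h2
  have hε0 : H.ε ≠ 0 := H.ε_ne
  let C1 : Copy H B := ⟨J B u w t, H.ε, hε0, fun a b => by rw [hJ, ht2, one_mul]⟩
  let C2 : Copy H B := ⟨J B u w (-t), -H.ε, neg_ne_zero.2 hε0, fun a b => by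
    rw [hJ, ← neg_add, ht2]
    ring⟩
  obtain ⟨c1, hc1⟩ := C1.exists_c hσ hB3
  obtain ⟨c2, hc2⟩ := C2.exists_c hσ hB3
  let D1 : Coord C1 := ⟨c1, hc1⟩
  let D2 : Coord C2 := ⟨c2, hc2⟩
  have h12 : ∀ a, D1.c (C2.j a) = 0 := by
    intro a
    refine hB3 _ fun b => ?_
    have h3 : H.h (C1.j b) (C2.j a) = C1.κ * B b (D1.c (C2.j a)) := D1.hc b _
    have h4 : H.h (C1.j b) (C2.j a) = 0 := by
      change H.h (J B u w t b) (J B u w (-t) a) = 0
      rw [hJ, add_neg_cancel, zero_mul, zero_mul]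
    rw [h4] at h3
    exact (mul_eq_zero.1 h3.symm).resolve_left C1.κ0
  have h21 : ∀ a, D2.c (C1.j a) = 0 := by
    intro a
    refine hB3 _ fun b => ?_
    have h3 : H.h (C2.j b) (C1.j a) = C2.κ * B b (D2.c (C1.j a)) := D2.hc b _
    have h4 : H.h (C2.j b) (C1.j a) = 0 := by
      change H.h (J B u w (-t) b) (J B u w t a) = 0
      rw [hJ, neg_add_cancel, zero_mul, zero_mul]
    rw [h4] at h3
    exact (mul_eq_zero.1 h3.symm).resolve_left C2.κ0
  have hx1 : ∀ {C : Copy H B} (D : Coord C), D.x hB3 A ^ q = 1 := by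
    intro C D
    rw [D.x_pow, hA2]
    exact LinearEquiv.ext fun v => D.f_one v
  refine ⟨D1.x hB3 A, D2.x hB3 A, D1.x_isom hB3 hσ hB1 hA1, D2.x_isom hB3 hσ hB1 hA1, hx1 D1, hx1 D2, ?_, ?_⟩
  · apply LinearEquiv.ext
    intro v
    rw [LinearEquiv.mul_apply, LinearEquiv.mul_apply, D1.x_apply, D2.x_apply, D2.x_apply, D1.x_apply, map_add D1.c,
      map_add D2.c, h12, h21, add_zero, add_zero]
    abel
  · intro hpf
    obtain ⟨W, -, hW, hs, hdim⟩ := pf_top (dig m) ⊥ (fun v hv w hw => by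
      rw [mem_bot] at hv
      rw [hv, H.zero_left]) (fun x _ => Submodule.map_bot _) hpf
    rw [finrank_bot, zero_add, sum_dig] at hdim
    have ho1 : ∀ v ∈ W, ∀ a, H.h (C1.j a) v = 0 := fun v hv a =>
      D1.orth hB3 hd hd0 hq0 hA2 hA3 hW (sb_of_map (hs _ (Set.mem_insert _ _))) hv a
    have ho2 : ∀ v ∈ W, ∀ a, H.h (C2.j a) v = 0 := fun v hv a =>
      D2.orth hB3 hd hd0 hq0 hA2 hA3 hW (sb_of_map (hs _ (Set.mem_insert_of_mem _ rfl))) hv a
    let i0 : Fin d := ⟨0, hd0⟩
    have hu0 : (2 : F) • u i0 = C1.j (Pi.single i0 1) + C2.j (Pi.single i0 1) := by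
      change _ = (∑ i, ((Pi.single i0 1 : Fin d → F) i • u i + (t * B (Pi.single i0 1) (Pi.single i 1)) • w i)) +
        ∑ i, ((Pi.single i0 1 : Fin d → F) i • u i + (-t * B (Pi.single i0 1) (Pi.single i 1)) • w i)
      rw [← Finset.sum_add_distrib, Finset.sum_eq_single i0]
      · rw [Pi.single_eq_same]
        module
      · intro i _ hi
        rw [Pi.single_eq_of_ne hi]
        module
      · intro h; exact absurd (Finset.mem_univ i0) h
    have hperp : u i0 ∈ perp H W := by
      intro v hv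
      have h3 : H.h ((2 : F) • u i0) v = 0 := by rw [hu0, H.add_left, ho1 v hv, ho2 v hv, add_zero]
      rw [H.smul_left] at h3
      exact (mul_eq_zero.1 h3).resolve_left h2
    by_cases huW : u i0 ∈ W
    · have h3 : (Pi.single i0 1 : Fin d → F) = 0 := by
        refine hB3 _ fun b => ?_
        have h4 := ho1 _ huW b
        have h5 : H.h (C1.j b) (u i0) = t * H.ε * B b (Pi.single i0 1) := by
          change H.h (∑ i, (b i • u i + (t * B b (Pi.single i 1)) • w i)) (u i0) = _
          rw [h_sum_left, Finset.sum_eq_single i0]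
          · rw [H.add_left, H.smul_left, H.smul_left, huu, H.swap (u i0) (w i0), hσ, huw, if_pos rfl]
            ring
          · intro i _ hi
            rw [H.add_left, H.smul_left, H.smul_left, huu, H.swap (u i0) (w i), hσ, huw, if_neg (Ne.symm hi)]
            ring
          · intro h; exact absurd (Finset.mem_univ i0) h
        rw [h5] at h4
        exact (mul_eq_zero.1 h4).resolve_left (mul_ne_zero (inv_ne_zero h2) hε0)
      have h9 := congrFun h3 i0
      rw [Pi.single_eq_same, Pi.zero_apply] at h9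
      exact one_ne_zero h9
    · exact false_of_max (hyp_le hy) hW hdim hperp (huu i0 i0) huW

end Cfsg.Agent.H435.PG
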